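import Cfsg.Agent.HallHigmanB.NormRing
import Cfsg.Agent.ExtraFpf.ConjRep
import Cfsg.Agent.CoprimeAction.Basic

/-!
An element whose bottom power centralises all invariant abelian subgroups of a group of class two commutes with every
invariant abelian group of operators, modulo the kernel.
-/

set_option autoImplicit false
set_option linter.style.haveILetI false

namespace CfsgLib.HallHigmanB

open scoped IsMulCommutative commutatorElement

variable {L : Type*} [Group L] [Finite L] {p q : ℕ} [hp : Fact p.Prime] [hq : Fact q.Prime]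

theorem commutator_mem_centralizer (hp2 : p ≠ 2) (hqp : q ≠ p) (T D : Subgroup L) [hTn : T.Normal] [hDn : D.Normal]
    (hTq : IsPGroup q T) (hDT : D ≤ T) (hDc : D ≤ Subgroup.centralizer (T : Set L))
    (hcomm : ∀ a ∈ T, ∀ b ∈ T, ⁅a, b⁆ ∈ D) (hpow : ∀ a ∈ T, a ^ q ∈ D)
    (e : ℕ) (x : L) (hx : x ^ p ^ (e + 1) = 1) (E : Subgroup L) (hEp : IsPGroup p E)
    (hED : E ≤ Subgroup.centralizer (D : Set L)) (hxE : ∀ h ∈ E, x * h * x⁻¹ ∈ E)
    (hEc : ∀ a ∈ E, ∀ b ∈ E, ⁅a, b⁆ ∈ Subgroup.centralizer (T : Set L))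
    (hU : ∀ U : Subgroup L, U ≤ T → (∀ a ∈ U, ∀ b ∈ U, a * b = b * a) → (∀ a ∈ U, x * a * x⁻¹ ∈ U) →
      x ^ p ^ e ∈ Subgroup.centralizer (U : Set L)) :
    ∀ h ∈ E, x ^ p ^ e * h * (x ^ p ^ e)⁻¹ * h⁻¹ ∈ Subgroup.centralizer (T : Set L) := by
  classical
  by_contra hcon
  push Not at hcon
  obtain ⟨h₀, h₀E, h₀n⟩ := hcon
  set π := QuotientGroup.mk' D with hπ
  set V := T.map π with hV
  haveI hVn : V.Normal := hTn.map π (QuotientGroup.mk'_surjective _)
  have hπ1 : ∀ d ∈ D, π d = 1 := fun d hd => (QuotientGroup.eq_one_iff d).2 hd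
  haveI : IsMulCommutative V := ⟨⟨fun a b => by
    obtain ⟨_, a, ha, rfl⟩ := a
    obtain ⟨_, b, hb, rfl⟩ := b
    refine Subtype.ext ?_
    show π a * π b = π b * π a
    rw [← commutatorElement_eq_one_iff_mul_comm, ← map_commutatorElement]
    exact hπ1 _ (hcomm a ha b hb)⟩⟩
  haveI : Module (ZMod q) (Additive V) := AddCommGroup.zmodModule (n := q) (G := Additive V) fun a => by
    obtain ⟨⟨_, a, ha, rfl⟩, rfl⟩ := Additive.ofMul.surjective a
    rw [← ofMul_pow]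
    exact congrArg Additive.ofMul (Subtype.ext ((map_pow π a q).symm.trans (hπ1 _ (hpow a ha))))
  let ρ : L →* Module.End (ZMod q) (Additive V) := (CfsgLib.ExtraFpf.conjRep V q).comp
    (π.codRestrict (Subgroup.normalizer (V : Set (L ⧸ D))) fun g => by
      rw [Subgroup.normalizer_eq_top_iff.2 hVn]; exact Subgroup.mem_top _)
  have hρ : ∀ g : L, ∀ a : Additive V, ((Additive.toMul (ρ g a) : V) : L ⧸ D) =
      π g * ((Additive.toMul a : V) : L ⧸ D) * (π g)⁻¹ := fun g a => rfl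
  have hρC : ∀ g ∈ E, ρ g = 1 → g ∈ Subgroup.centralizer (T : Set L) := by
    intro g hg h1
    refine (Subgroup.zpowers_le.1 (CfsgLib.CoprimeAction.le_centralizer_of_chain (A := Subgroup.zpowers g) (N := D)
      (K := T) ?_ (Subgroup.zpowers_le.2 (hED hg)) ?_))
    · obtain ⟨i, hi⟩ := IsPGroup.iff_card.1 (hEp.to_le (Subgroup.zpowers_le.2 hg))
      obtain ⟨j, hj⟩ := IsPGroup.iff_card.1 (hTq.to_le hDT)
      rw [hi, hj]
      exact Nat.Coprime.pow _ _ ((Nat.coprime_primes hp.out hq.out).2 hqp.symm)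
    · rw [Subgroup.commutator_le]
      intro k hk a ha
      obtain ⟨i, rfl⟩ := Subgroup.mem_zpowers_iff.1 ha
      have h2 : π g ∈ Subgroup.centralizer (V : Set (L ⧸ D)) :=
        (CfsgLib.ExtraFpf.conjRep_eq_one V q _).1 h1
      refine (QuotientGroup.eq_one_iff _).1 ?_
      show π ⁅k, g ^ i⁆ = 1
      rw [map_commutatorElement, map_zpow, commutatorElement_eq_one_iff_mul_comm]
      exact Subgroup.mem_centralizer_iff.1 (Subgroup.zpow_mem _ h2 i) (π k) ⟨k, hk, rfl⟩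
  have hρ1 : ∀ c ∈ Subgroup.centralizer (T : Set L), ρ c = 1 := fun c hc => by
    refine (CfsgLib.ExtraFpf.conjRep_eq_one V q _).2 (Subgroup.mem_centralizer_iff.2 ?_)
    rintro _ ⟨a, ha, rfl⟩
    show π a * π c = π c * π a
    rw [← map_mul, ← map_mul, Subgroup.mem_centralizer_iff.1 hc a ha]
  let ρu : L →* (Module.End (ZMod q) (Additive V))ˣ := ρ.toHomUnits
  set y := x ^ p ^ e with hy
  have hEi : ∀ i : ℕ, ∀ h ∈ E, x ^ i * h * (x ^ i)⁻¹ ∈ E := by
    intro i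
    induction i with
    | zero => intro h hh; simpa using hh
    | succ i IH =>
      intro h hh
      rw [show x ^ (i + 1) * h * (x ^ (i + 1))⁻¹ = x * (x ^ i * h * (x ^ i)⁻¹) * x⁻¹ by rw [pow_succ']; group]
      exact hxE _ (IH h hh)
  have hne : ρu x ^ p ^ e * ρu h₀ * (ρu x ^ p ^ e)⁻¹ ≠ ρu h₀ := by
    rw [← map_pow, ← map_inv, ← map_mul, ← map_mul]
    intro h
    refine h₀n (hρC _ (E.mul_mem (hEi _ _ h₀E) (E.inv_mem h₀E)) ?_)
    have h1 : ρu (y * h₀ * y⁻¹ * h₀⁻¹) = 1 := by rw [map_mul, h, ← map_mul, mul_inv_cancel, map_one]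
    exact congrArg Units.val h1
  have hqA : IsUnit ((p : ℕ) : Module.End (ZMod q) (Additive V)) := by
    have h1 : IsUnit ((p : ℕ) : ZMod q) := (ZMod.isUnit_iff_coprime _ _).2
      ((Nat.coprime_primes hp.out hq.out).2 hqp.symm)
    simpa using h1.map (algebraMap (ZMod q) (Module.End (ZMod q) (Additive V)))
  obtain ⟨_, ⟨h, hh, rfl⟩, hnz⟩ := exists_mul_norm_ne_zero hp2 hqA e (ρu x) (by rw [← map_pow, hx, map_one])
    (E.map ρu)
    (by
      rintro _ ⟨a, ha, rfl⟩ _ ⟨b, hb, rfl⟩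
      rw [← commutatorElement_eq_one_iff_mul_comm, ← map_commutatorElement]
      exact Units.ext (hρ1 _ (hEc a ha b hb)))
    (by
      rintro _ ⟨a, ha, rfl⟩
      obtain ⟨k, hk⟩ := hEp ⟨a, ha⟩
      exact ⟨k, by rw [← map_pow, show a ^ p ^ k = 1 from congrArg Subtype.val hk, map_one]⟩)
    (by rintro _ ⟨a, ha, rfl⟩; exact ⟨_, hxE a ha, by simp⟩)
    (ρu h₀) ⟨h₀, h₀E, rfl⟩ hne
  set Nm := ∑ i ∈ Finset.range (p ^ (e + 1)), (ρu x : Module.End (ZMod q) (Additive V)) ^ i with hNm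
  obtain ⟨v, hv⟩ := not_forall.1 fun hall : ∀ v, ((((ρu x ^ p ^ e * ρu h * (ρu x ^ p ^ e)⁻¹ :
      (Module.End (ZMod q) (Additive V))ˣ) : Module.End (ZMod q) (Additive V)) +
      (((ρu x ^ p ^ e * ρu h * (ρu x ^ p ^ e)⁻¹)⁻¹ : (Module.End (ZMod q) (Additive V))ˣ) :
        Module.End (ZMod q) (Additive V)) - (ρu h : Module.End (ZMod q) (Additive V)) -
      (((ρu h)⁻¹ : (Module.End (ZMod q) (Additive V))ˣ) : Module.End (ZMod q) (Additive V))) * Nm) v = 0 =>
    hnz (LinearMap.ext hall)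
  set w := Nm v with hw
  have hfix : ρ x w = w := by
    rw [hw, ← Module.End.mul_apply]
    congr 1
    have h1 := mul_geom_sum (ρ x) (p ^ (e + 1))
    rw [← map_pow, hx, map_one, sub_self, sub_mul, one_mul, sub_eq_zero] at h1
    exact h1
  obtain ⟨a, ha, hwa⟩ := (Additive.toMul w).2
  have hwa' : ((Additive.toMul w : V) : L ⧸ D) = π a := hwa.symm
  -- the abelian subgroup
  let cj : L → L := fun g => g * a * g⁻¹
  let b : L → L := fun g => cj g * cj g⁻¹
  have hcjT : ∀ g, cj g ∈ T := fun g => hTn.conj_mem a ha g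
  have hDcomm : ∀ d ∈ D, ∀ t ∈ T, d * t = t * d := fun d hd t ht =>
    (Subgroup.mem_centralizer_iff.1 (hDc hd) t ht).symm
  have hmulL : ∀ s t r : L, s ∈ T → t ∈ T → r ∈ T → ⁅s * t, r⁆ = ⁅s, r⁆ * ⁅t, r⁆ := by
    intro s t r hs ht hr
    have e1 : ⁅s * t, r⁆ = s * ⁅t, r⁆ * s⁻¹ * ⁅s, r⁆ := by simp [commutatorElement_def, mul_assoc]
    rw [e1, ← hDcomm _ (hcomm t ht r hr) s hs, mul_inv_cancel_right,
      hDcomm _ (hcomm t ht r hr) _ (hDT (hcomm s hs r hr))]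
  have hmulR : ∀ s t r : L, s ∈ T → t ∈ T → r ∈ T → ⁅s, t * r⁆ = ⁅s, t⁆ * ⁅s, r⁆ := by
    intro s t r hs ht hr
    have e1 : ⁅s, t * r⁆ = ⁅s, t⁆ * (t * ⁅s, r⁆ * t⁻¹) := by simp [commutatorElement_def, mul_assoc]
    rw [e1, ← hDcomm _ (hcomm s hs r hr) t ht, mul_inv_cancel_right]
  have hinv : ∀ g ∈ E, ∀ s t : L, s ∈ T → t ∈ T → ⁅g * s * g⁻¹, g * t * g⁻¹⁆ = ⁅s, t⁆ := by
    intro g hg s t hs ht
    rw [← conjugate_commutatorElement, ← Subgroup.mem_centralizer_iff.1 (hED hg) _ (hcomm s hs t ht),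
      mul_inv_cancel_right]
  have hswap : ∀ g ∈ E, ∀ k ∈ E, (g * k * g⁻¹) * a * (g * k * g⁻¹)⁻¹ = cj k := by
    intro g hg k hk
    have h1 := Subgroup.mem_centralizer_iff.1 (hEc g hg k hk) _ (hcjT k)
    calc (g * k * g⁻¹) * a * (g * k * g⁻¹)⁻¹ = ⁅g, k⁆ * cj k * ⁅g, k⁆⁻¹ := by
          simp only [cj, commutatorElement_def]; group
      _ = cj k := by rw [← h1, mul_inv_cancel_right]
  have hab1 : ∀ g ∈ E, ⁅a, b g⁆ = 1 := by
    intro g hg
    rw [hmulR _ _ _ ha (hcjT g) (hcjT g⁻¹)]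
    have h1 := hinv g hg a (cj g⁻¹) ha (hcjT _)
    rw [show g * cj g⁻¹ * g⁻¹ = a by simp only [cj]; group] at h1
    rw [← h1, ← commutatorElement_inv a (cj g)]
    exact mul_inv_cancel _
  have hab2 : ∀ g ∈ E, ∀ k ∈ E, ⁅b g, b k⁆ = 1 := by
    intro g hg k hk
    rw [hmulL _ _ _ (hcjT g) (hcjT g⁻¹) (T.mul_mem (hcjT k) (hcjT k⁻¹)), hmulR _ _ _ (hcjT g) (hcjT k) (hcjT k⁻¹),
      hmulR _ _ _ (hcjT g⁻¹) (hcjT k) (hcjT k⁻¹)]
    have h1 : ⁅cj g⁻¹, cj k⁻¹⁆ = ⁅cj k, cj g⁆ := by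
      rw [← hinv (g * k) (E.mul_mem hg hk) _ _ (hcjT g⁻¹) (hcjT k⁻¹)]
      congr 1
      · rw [← hswap g hg k hk]; simp only [cj]; group
      · simp only [cj]; group
    have h2 : ⁅cj g⁻¹, cj k⁆ = ⁅cj k⁻¹, cj g⁆ := by
      rw [← hinv (g * k⁻¹) (E.mul_mem hg (E.inv_mem hk)) _ _ (hcjT g⁻¹) (hcjT k)]
      congr 1
      · rw [← hswap g hg k⁻¹ (E.inv_mem hk)]; simp only [cj]; group
      · simp only [cj]; group
    rw [h1, h2, ← commutatorElement_inv (cj g) (cj k), ← commutatorElement_inv (cj g) (cj k⁻¹)]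
    group
  set S : Set L := (D : Set L) ∪ {a} ∪ b '' (E : Set L) with hS
  have hST : S ⊆ T := by
    rintro s ((hs | hs) | ⟨g, -, rfl⟩)
    · exact hDT hs
    · rw [Set.mem_singleton_iff.1 hs]; exact ha
    · exact T.mul_mem (hcjT g) (hcjT g⁻¹)
  have hScomm : ∀ s ∈ S, ∀ t ∈ S, s * t = t * s := by
    rintro s hs t ht
    rcases hs with (hs | hs) | ⟨g, hg, rfl⟩
    · exact hDcomm s hs t (hST ht)
    · rw [Set.mem_singleton_iff.1 hs]
      rcases ht with (ht | ht) | ⟨k, hk, rfl⟩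
      · exact (hDcomm t ht a ha).symm
      · rw [Set.mem_singleton_iff.1 ht]
      · exact commutatorElement_eq_one_iff_mul_comm.1 (hab1 k hk)
    · rcases ht with (ht | ht) | ⟨k, hk, rfl⟩
      · exact (hDcomm t ht _ (T.mul_mem (hcjT g) (hcjT g⁻¹))).symm
      · rw [Set.mem_singleton_iff.1 ht]
        exact (commutatorElement_eq_one_iff_mul_comm.1 (hab1 g hg)).symm
      · exact commutatorElement_eq_one_iff_mul_comm.1 (hab2 g hg k hk)
  set U := Subgroup.closure S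
  have hxa : ∃ d ∈ D, x * a * x⁻¹ = d * a := by
    refine ⟨x * a * x⁻¹ * a⁻¹, (QuotientGroup.eq_one_iff _).1 ?_, by group⟩
    show π _ = 1
    have h1 := congrArg (fun z : Additive V => ((Additive.toMul z : V) : L ⧸ D)) hfix
    simp only [hρ, hwa'] at h1
    rw [map_mul, map_mul, map_mul, map_inv, map_inv, h1, mul_inv_cancel]
  have hcent := hU U ((Subgroup.closure_le T).2 hST) (by
      intro s hs t ht
      have h1 : U ≤ Subgroup.centralizer (S : Set L) := (Subgroup.closure_le _).2 fun s hs =>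
        Subgroup.mem_centralizer_iff.2 fun t ht => hScomm t ht s hs
      have h2 : U ≤ Subgroup.centralizer (U : Set L) :=
        (Subgroup.closure_le _).2 fun s hs => Subgroup.mem_centralizer_iff.2 fun t ht =>
          (Subgroup.mem_centralizer_iff.1 (h1 ht) s hs).symm
      exact Subgroup.mem_centralizer_iff.1 (h2 ht) s hs) (by
      intro s hs
      have h1 : U ≤ U.comap (MulAut.conj x).toMonoidHom := by
        refine (Subgroup.closure_le _).2 ?_
        obtain ⟨d, hd, hxd⟩ := hxa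
        have hDU : ∀ d ∈ D, d ∈ U := fun d hd => Subgroup.subset_closure (Or.inl (Or.inl hd))
        rintro s ((hs | hs) | ⟨g, hg, rfl⟩)
        · exact hDU _ (hDn.conj_mem s hs x)
        · rw [Set.mem_singleton_iff.1 hs]
          show x * a * x⁻¹ ∈ U
          rw [hxd]
          exact U.mul_mem (hDU d hd) (Subgroup.subset_closure (Or.inl (Or.inr rfl)))
        · show x * b g * x⁻¹ ∈ U
          have h2 : ∀ k ∈ E, x * cj k * x⁻¹ = d * cj (x * k * x⁻¹) := fun k hk => by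
            calc x * cj k * x⁻¹ = (x * k * x⁻¹) * (x * a * x⁻¹) * (x * k * x⁻¹)⁻¹ := by simp only [cj]; group
              _ = ((x * k * x⁻¹) * d) * a * (x * k * x⁻¹)⁻¹ := by rw [hxd]; group
              _ = d * cj (x * k * x⁻¹) := by
                rw [← Subgroup.mem_centralizer_iff.1 (hED (hxE k hk)) d hd]; simp only [cj]; group
          have h3 : x * b g * x⁻¹ = (d * cj (x * g * x⁻¹)) * (d * cj (x * g⁻¹ * x⁻¹)) := by
            rw [← h2 g hg, ← h2 g⁻¹ (E.inv_mem hg)]; simp only [b]; group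
          have h4 : d * cj (x * g * x⁻¹) * (d * cj (x * g⁻¹ * x⁻¹)) = d * d * b (x * g * x⁻¹) := by
            calc _ = d * (cj (x * g * x⁻¹) * d) * cj (x * g⁻¹ * x⁻¹) := by group
              _ = d * (d * cj (x * g * x⁻¹)) * cj (x * g⁻¹ * x⁻¹) := by rw [hDcomm d hd _ (hcjT _)]
              _ = d * d * b (x * g * x⁻¹) := by simp only [b, cj]; group
          rw [h3, h4]
          exact U.mul_mem (U.mul_mem (hDU d hd) (hDU d hd))
            (Subgroup.subset_closure (Or.inr ⟨x * g * x⁻¹, hxE g hg, rfl⟩))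
      exact h1 hs)
  -- contradiction
  have hfixy : y * b h * y⁻¹ = b h := by
    rw [← Subgroup.mem_centralizer_iff.1 hcent (b h) (Subgroup.subset_closure (Or.inr ⟨h, hh, rfl⟩)),
      mul_inv_cancel_right]
  have hfixa : y * a * y⁻¹ = a := by
    rw [← Subgroup.mem_centralizer_iff.1 hcent a (Subgroup.subset_closure (Or.inl (Or.inr rfl))),
      mul_inv_cancel_right]
  have hfixa' : y⁻¹ * a * y = a := by
    calc y⁻¹ * a * y = y⁻¹ * (y * a * y⁻¹) * y := by rw [hfixa]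
      _ = a := by group
  refine hv ?_
  rw [Module.End.mul_apply, ← hw, LinearMap.sub_apply, LinearMap.sub_apply, LinearMap.add_apply, sub_sub, sub_eq_zero]
  apply Additive.toMul.injective
  refine Subtype.ext ?_
  simp only [← map_pow, ← map_inv, ← map_mul, toMul_add, Subgroup.coe_mul, ρu, MonoidHom.coe_toHomUnits, hρ, hwa']
  refine congrArg π ?_
  calc (y * h * y⁻¹) * a * (y * h * y⁻¹)⁻¹ * ((y * h * y⁻¹)⁻¹ * a * (y * h * y⁻¹)⁻¹⁻¹)
      = y * (h * (y⁻¹ * a * y) * h⁻¹ * (h⁻¹ * (y⁻¹ * a * y) * h⁻¹⁻¹)) * y⁻¹ := by group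
    _ = y * b h * y⁻¹ := by
      rw [hfixa']
    _ = h * a * h⁻¹ * (h⁻¹ * a * h⁻¹⁻¹) := hfixy

end CfsgLib.HallHigmanB
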