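import Cfsg.Agent.HallHigmanB.ClassTwoAction
import Cfsg.Agent.PGroup.Critical

/-!
The commutators of the bottom powers of the elements of a coset centralise every invariant group of order prime to `p`
in which invariant abelian subgroups are centralised by these powers.
-/

set_option autoImplicit false
set_option linter.style.haveILetI false

namespace CfsgLib.HallHigmanB

open scoped IsMulCommutative commutatorElement

theorem exists_self_centralizing_abelian {Q : Type*} [Group Q] [Finite Q] {p : ℕ} [Fact p.Prime] (hQ : IsPGroup p Q)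
    (A : Subgroup Q) [A.Normal] :
    ∃ E : Subgroup Q, E.Normal ∧ E ≤ A ∧ IsMulCommutative E ∧ A ⊓ Subgroup.centralizer (E : Set Q) ≤ E := by
  obtain ⟨E, ⟨hEn, hEA, hEc⟩, hmax⟩ := (Set.toFinite
    {E : Subgroup Q | E.Normal ∧ E ≤ A ∧ IsMulCommutative E}).exists_maximal
    ⟨⊥, inferInstance, bot_le, inferInstanceAs (IsMulCommutative ↥(⊥ : Subgroup Q))⟩
  refine ⟨E, hEn, hEA, hEc, ?_⟩
  by_contra hne
  haveI := hEn
  haveI := hEc
  haveI : (Subgroup.centralizer (E : Set Q)).Normal := Subgroup.normal_centralizer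
  set C := A ⊓ Subgroup.centralizer (E : Set Q)
  have hEC : E ≤ C := le_inf hEA (Subgroup.le_centralizer E)
  obtain ⟨z, hzC, hzE, hzc⟩ := CfsgLib.PGroup.exists_mem_central_mod hQ (lt_of_le_of_ne hEC fun h => hne h.symm.le)
  set F := E ⊔ Subgroup.zpowers z
  have hFn : F.Normal := ⟨fun a ha g => by
    have h1 : F ≤ F.comap (MulAut.conj g).toMonoidHom := by
      refine sup_le (fun b hb => Subgroup.mem_sup_left (hEn.conj_mem b hb g)) (Subgroup.zpowers_le.2 ?_)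
      show g * z * g⁻¹ ∈ F
      rw [show g * z * g⁻¹ = ⁅z, g⁆⁻¹ * z by simp [commutatorElement_def, mul_assoc]]
      exact F.mul_mem (Subgroup.mem_sup_left (E.inv_mem (hzc g))) (Subgroup.mem_sup_right (Subgroup.mem_zpowers z))
    exact h1 ha⟩
  have hFc : F ≤ Subgroup.centralizer (F : Set Q) := by
    refine Subgroup.le_centralizer_iff.1 (sup_le (Subgroup.le_centralizer_iff.1 (sup_le ?_ ?_))
      (Subgroup.le_centralizer_iff.1 (sup_le ?_ ?_)))
    · exact Subgroup.le_centralizer E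
    · exact Subgroup.zpowers_le.2 hzC.2
    · exact Subgroup.le_centralizer_iff.1 (Subgroup.zpowers_le.2 hzC.2)
    · exact Subgroup.le_centralizer (Subgroup.zpowers z)
  exact hzE (hmax ⟨hFn, sup_le hEA (Subgroup.zpowers_le.2 hzC.1), Subgroup.le_centralizer_iff_isMulCommutative.1 hFc⟩
    le_sup_left (Subgroup.mem_sup_right (Subgroup.mem_zpowers z)))

variable {L : Type*} [Group L] [Finite L] {p q : ℕ} [hp : Fact p.Prime] [hq : Fact q.Prime]

theorem bottom_commutator_mem_centralizer (hp2 : p ≠ 2) (hqp : q ≠ p) (T : Subgroup L) [hTn : T.Normal]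
    (hTq : IsPGroup q T) (X P₂ : Subgroup L) (hXp : IsPGroup p X) (hPX : P₂ ≤ X)
    (hPn : ∀ g ∈ X, ∀ a ∈ P₂, g * a * g⁻¹ ∈ P₂) (e : ℕ) (hexp : ∀ g ∈ X, g ^ p ^ (e + 1) = 1) (x : L) (hxX : x ∈ X)
    (hn : ∀ w ∈ P₂, (w * x) ^ p ^ e * (x ^ p ^ e)⁻¹ ∈ P₂)
    (hU : ∀ w ∈ P₂, ∀ U : Subgroup L, U ≤ T → (∀ a ∈ U, ∀ b ∈ U, a * b = b * a) →
      (∀ a ∈ U, (w * x) * a * (w * x)⁻¹ ∈ U) → (w * x) ^ p ^ e ∈ Subgroup.centralizer (U : Set L)) :
    ∀ w ∈ P₂, x ^ p ^ e * ((w * x) ^ p ^ e * (x ^ p ^ e)⁻¹) * (x ^ p ^ e)⁻¹ *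
      ((w * x) ^ p ^ e * (x ^ p ^ e)⁻¹)⁻¹ ∈ Subgroup.centralizer (T : Set L) := by
  classical
  intro w hw
  -- a critical subgroup of `T`
  set Γ := (MulAut.conjNormal (H := T) : L →* MulAut T).range
  obtain ⟨H, hH⟩ := CfsgLib.PGroup.exists_critical hTq Γ fun g => ⟨(g : L), MulEquiv.ext fun a => Subtype.ext (by simp)⟩
  set T₀ := H.map T.subtype
  haveI hT₀n : T₀.Normal := ⟨fun a ha g => by
    obtain ⟨a, ha, rfl⟩ := ha
    exact ⟨MulAut.conjNormal g a, hH.invariant _ ⟨g, rfl⟩ a ha, by simp⟩⟩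
  set D := T₀ ⊓ Subgroup.centralizer (T₀ : Set L)
  haveI : (Subgroup.centralizer (T₀ : Set L)).Normal := Subgroup.normal_centralizer
  have hT₀T : T₀ ≤ T := Subgroup.map_subtype_le H
  have hHc : ∀ a : T, a ∈ H → a ∈ Subgroup.centralizer (H : Set T) → (a : L) ∈ D := fun a ha hc =>
    ⟨⟨a, ha, rfl⟩, Subgroup.mem_centralizer_iff.2 fun b hb => by
      obtain ⟨b, hb, rfl⟩ := hb
      exact congrArg Subtype.val (Subgroup.mem_centralizer_iff.1 hc b hb)⟩
  have hcomm : ∀ a ∈ T₀, ∀ b ∈ T₀, ⁅a, b⁆ ∈ D := by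
    rintro _ ⟨a, ha, rfl⟩ _ ⟨b, hb, rfl⟩
    have h1 := hH.commutator_le (Subgroup.commutator_mem_commutator ha (Subgroup.mem_top b))
    rw [← map_commutatorElement]
    exact hHc _ h1.1 h1.2
  have hpow : ∀ a ∈ T₀, a ^ q ∈ D := by
    rintro _ ⟨a, ha, rfl⟩
    rw [← map_pow]
    exact hHc _ (H.pow_mem ha q) (hH.pow_mem a ha)
  -- the action on `T₀` detects the action on `T`
  have hTT₀ : ∀ g ∈ X, g ∈ Subgroup.centralizer (T₀ : Set L) → g ∈ Subgroup.centralizer (T : Set L) := by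
    intro g hg hgc
    obtain ⟨i, hi⟩ := hXp ⟨g, hg⟩
    haveI : H.Normal := ⟨fun a ha b => by
      have := hH.invariant (MulAut.conjNormal (b : L)) ⟨(b : L), rfl⟩ a ha
      rwa [show MulAut.conjNormal (b : L) a = b * a * b⁻¹ from Subtype.ext (by simp)] at this⟩
    have h1 : MulAut.conjNormal (H := T) g = 1 := by
      refine CfsgLib.PGroup.eq_one_of_fixes_selfCentralizing hTq hH.centralizer_le ?_ fun a ha => Subtype.ext ?_
      · refine Nat.Coprime.coprime_dvd_left (orderOf_dvd_of_pow_eq_one (n := p ^ i) ?_)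
          (((Nat.coprime_primes hp.out hq.out).2 hqp.symm).pow_left i)
        rw [← map_pow, show g ^ p ^ i = 1 from congrArg Subtype.val hi, map_one]
      · rw [MulAut.conjNormal_apply, ← Subgroup.mem_centralizer_iff.1 hgc a ⟨a, ha, rfl⟩, mul_inv_cancel_right]
    refine Subgroup.mem_centralizer_iff.2 fun a ha => ?_
    have h2 := congrArg Subtype.val (DFunLike.congr_fun h1 (⟨a, ha⟩ : T))
    rw [MulAut.conjNormal_apply, MulAut.one_apply, mul_inv_eq_iff_eq_mul] at h2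
    exact h2.symm
  -- the bottom powers centralise `D`
  have hDab : ∀ a ∈ D, ∀ b ∈ D, a * b = b * a := fun a ha b hb => Subgroup.mem_centralizer_iff.1 hb.2 a ha.1
  have hyD : ∀ v ∈ P₂, (v * x) ^ p ^ e ∈ Subgroup.centralizer (D : Set L) := fun v hv =>
    hU v hv D (inf_le_left.trans hT₀T) hDab fun a ha => (inferInstance : D.Normal).conj_mem a ha _
  set y := x ^ p ^ e with hy
  set n := (w * x) ^ p ^ e * y⁻¹ with hnw
  have hnP : n ∈ P₂ := hn w hw
  have hy1 : y ∈ Subgroup.centralizer (D : Set L) := by simpa only [one_mul] using hyD 1 P₂.one_mem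
  have hnD : n ∈ Subgroup.centralizer (D : Set L) :=
    Subgroup.mul_mem _ (hyD w hw) (Subgroup.inv_mem _ hy1)
  haveI : (Subgroup.centralizer (D : Set L)).Normal := Subgroup.normal_centralizer
  -- a maximal abelian normal subgroup modulo the kernel
  let C := (Subgroup.centralizer (T₀ : Set L)).subgroupOf X
  haveI : C.Normal := inferInstanceAs ((Subgroup.centralizer (T₀ : Set L)).subgroupOf X).Normal
  let f := QuotientGroup.mk' C
  let A : Subgroup X := (P₂ ⊓ Subgroup.centralizer (D : Set L)).subgroupOf X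
  haveI : A.Normal := ⟨fun a ha g => ⟨hPn g g.2 a ha.1,
    (inferInstance : (Subgroup.centralizer (D : Set L)).Normal).conj_mem (a : L) ha.2 (g : L)⟩⟩
  haveI : (A.map f).Normal := (inferInstance : A.Normal).map f (QuotientGroup.mk'_surjective _)
  obtain ⟨Eb, hEn, hEA, hEc, hEs⟩ := exists_self_centralizing_abelian (hXp.to_quotient C) (A.map f)
  haveI := hEn
  set E := (Eb.comap f ⊓ A).map X.subtype with hE
  have hEmem : ∀ {a : L}, a ∈ E → ∃ ha : a ∈ X, f ⟨a, ha⟩ ∈ Eb := by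
    rintro _ ⟨a, ha, rfl⟩
    exact ⟨a.2, ha.1⟩
  have key : ∀ v ∈ P₂, ∀ h ∈ E, (v * x) ^ p ^ e * h * ((v * x) ^ p ^ e)⁻¹ * h⁻¹ ∈
      Subgroup.centralizer (T₀ : Set L) := by
    intro v hv
    have hvX : v * x ∈ X := X.mul_mem (hPX hv) hxX
    refine commutator_mem_centralizer hp2 hqp T₀ D (hTq.to_le hT₀T) inf_le_left inf_le_right hcomm hpow e (v * x)
      (hexp _ hvX) E (hXp.to_le (Subgroup.map_subtype_le _)) ?_ ?_ ?_ fun U hU' => hU v hv U (hU'.trans hT₀T)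
    · rintro _ ⟨a, ha, rfl⟩
      exact ha.2.2
    · rintro _ ⟨a, ha, rfl⟩
      refine ⟨⟨v * x, hvX⟩ * a * (⟨v * x, hvX⟩ : X)⁻¹, ?_, rfl⟩
      exact (inferInstance : (Eb.comap f ⊓ A).Normal).conj_mem a ha _
    · intro a ha b hb
      obtain ⟨haX, ha'⟩ := hEmem ha
      obtain ⟨hbX, hb'⟩ := hEmem hb
      have h1 : f ⁅(⟨a, haX⟩ : X), (⟨b, hbX⟩ : X)⁆ = 1 := by
        rw [map_commutatorElement, commutatorElement_eq_one_iff_mul_comm]
        exact congrArg Subtype.val (IsMulCommutative.is_comm.comm (⟨_, ha'⟩ : Eb) ⟨_, hb'⟩)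
      exact Subgroup.mem_subgroupOf.1 ((QuotientGroup.eq_one_iff _).1 h1)
  have hyX : y ∈ X := X.pow_mem hxX _
  have hnX : n ∈ X := hPX hnP
  let y' : X := ⟨y, hyX⟩
  let n' : X := ⟨n, hnX⟩
  have hcent : ∀ v ∈ P₂, ∀ z : X, (z : L) = (v * x) ^ p ^ e → f z ∈ Subgroup.centralizer (Eb : Set (X ⧸ C)) := by
    intro v hv z hz
    refine Subgroup.mem_centralizer_iff.2 fun b hb => ?_
    obtain ⟨a, ha, rfl⟩ := hEA hb
    have h1 := key v hv a ⟨a, ⟨hb, ha⟩, rfl⟩
    rw [← hz] at h1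
    have h2 : f (z * a * z⁻¹ * a⁻¹) = 1 := (QuotientGroup.eq_one_iff _).2 (Subgroup.mem_subgroupOf.2 h1)
    rw [map_mul, map_mul, map_mul, map_inv, map_inv, mul_inv_eq_one, mul_inv_eq_iff_eq_mul] at h2
    exact h2.symm
  have hyc := hcent 1 P₂.one_mem y' (by rw [one_mul])
  have hnc : f n' ∈ Subgroup.centralizer (Eb : Set (X ⧸ C)) := by
    have h1 := hcent w hw (n' * y') (by show n * y = _; rw [hnw, inv_mul_cancel_right])
    rw [map_mul] at h1
    have h2 := Subgroup.mul_mem _ h1 (Subgroup.inv_mem _ hyc)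
    rwa [mul_inv_cancel_right] at h2
  have hnE : f n' ∈ Eb := hEs ⟨⟨n', ⟨hnP, hnD⟩, rfl⟩, hnc⟩
  have h1 : f (y' * n' * y'⁻¹ * n'⁻¹) = 1 := by
    rw [map_mul, map_mul, map_mul, map_inv, map_inv, mul_inv_eq_one, mul_inv_eq_iff_eq_mul]
    exact (Subgroup.mem_centralizer_iff.1 hyc _ hnE).symm
  exact hTT₀ _ (y' * n' * y'⁻¹ * n'⁻¹).2 (Subgroup.mem_subgroupOf.1 ((QuotientGroup.eq_one_iff _).1 h1))

end CfsgLib.HallHigmanB
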