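import Mathlib

/-!
A norm is not annihilated by the self-adjoint part of an abelian group of units permuted by an element of `p`-power
order, unless that element centralises the group at the bottom level.
-/

set_option autoImplicit false
set_option linter.style.haveILetI false

namespace CfsgLib.HallHigmanB

open scoped IsMulCommutative

variable {A : Type*} [Ring A] {p : ℕ} [hp : Fact p.Prime]

theorem exists_mul_norm_ne_zero (hp2 : p ≠ 2) (hpu : IsUnit (p : A)) (e : ℕ) (u : Aˣ) (hu : u ^ p ^ (e + 1) = 1)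
    (H : Subgroup Aˣ) (hHc : ∀ a ∈ H, ∀ b ∈ H, a * b = b * a) (hHp : ∀ h ∈ H, ∃ k, h ^ p ^ k = 1)
    (hHn : ∀ h ∈ H, u * h * u⁻¹ ∈ H) (h₀ : Aˣ) (h₀H : h₀ ∈ H)
    (hne : u ^ p ^ e * h₀ * (u ^ p ^ e)⁻¹ ≠ h₀) :
    ∃ h ∈ H, (((u ^ p ^ e * h * (u ^ p ^ e)⁻¹ : Aˣ) : A) + (((u ^ p ^ e * h * (u ^ p ^ e)⁻¹)⁻¹ : Aˣ) : A)
      - (h : A) - ((h⁻¹ : Aˣ) : A)) * ∑ i ∈ Finset.range (p ^ (e + 1)), (u : A) ^ i ≠ 0 := by
  classical
  set R := Subring.closure ((fun h : Aˣ => (h : A)) '' (H : Set Aˣ)) with hR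
  haveI : IsMulCommutative R := Subring.isMulCommutative_closure (by
    rintro _ ⟨a, ha, rfl⟩ _ ⟨b, hb, rfl⟩
    exact congrArg Units.val (hHc a ha b hb))
  have hHi : ∀ (i : ℕ), ∀ h ∈ H, u ^ i * h * (u ^ i)⁻¹ ∈ H := by
    intro i
    induction i with
    | zero => intro h hh; simpa using hh
    | succ i IH =>
      intro h hh
      rw [show u ^ (i + 1) * h * (u ^ (i + 1))⁻¹ = u * (u ^ i * h * (u ^ i)⁻¹) * u⁻¹ by rw [pow_succ']; group]
      exact hHn _ (IH h hh)
  have hRi : ∀ (i : ℕ), ∀ r ∈ R, ((u ^ i : Aˣ) : A) * r * (((u ^ i)⁻¹ : Aˣ) : A) ∈ R := by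
    intro i r hr
    induction hr using Subring.closure_induction with
    | mem x hx =>
      obtain ⟨h, hh, rfl⟩ := hx
      exact Subring.subset_closure ⟨_, hHi i h hh, by simp [Units.val_mul]⟩
    | zero => simp
    | one => rw [mul_one, Units.mul_inv]; exact one_mem _
    | add a b _ _ ha hb => rw [mul_add, add_mul]; exact add_mem ha hb
    | neg a _ ha => rw [mul_neg, neg_mul]; exact neg_mem ha
    | mul a b _ _ ha hb =>
      rw [show ((u ^ i : Aˣ) : A) * (a * b) * (((u ^ i)⁻¹ : Aˣ) : A) =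
        (((u ^ i : Aˣ) : A) * a * (((u ^ i)⁻¹ : Aˣ) : A)) * (((u ^ i : Aˣ) : A) * b * (((u ^ i)⁻¹ : Aˣ) : A)) by
          simp only [mul_assoc, Units.inv_mul_cancel_left]]
      exact mul_mem ha hb
  let σ : ℕ → R → R := fun i r => ⟨_, hRi i r r.2⟩
  have hσpush : ∀ (i : ℕ) (r : R), ((u : A) ^ i) * (r : A) = (σ i r : A) * (u : A) ^ i := fun i r => by
    show _ = ((u ^ i : Aˣ) : A) * (r : A) * (((u ^ i)⁻¹ : Aˣ) : A) * (u : A) ^ i
    rw [← Units.val_pow_eq_pow_val, Units.inv_mul_cancel_right]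
  let emb : H → R := fun h => ⟨((h : Aˣ) : A), Subring.subset_closure ⟨_, h.2, rfl⟩⟩
  -- a prime separating `h₀` from its image
  let h₁ : H := ⟨_, hHi (p ^ e) h₀ h₀H⟩
  let z : H := h₁ * (⟨h₀, h₀H⟩ : H)⁻¹
  have hnil : ¬ IsNilpotent (emb z - 1) := by
    intro hn
    obtain ⟨k, hk⟩ := hHp (z : Aˣ) z.2
    have hzA : IsNilpotent (((z : Aˣ) : A) - 1) := by simpa [emb] using hn.map R.subtype
    set s := ∑ i ∈ Finset.range (p ^ k), ((z : Aˣ) : A) ^ i
    have hs : IsUnit s := by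
      have hsum : IsNilpotent (∑ i ∈ Finset.range (p ^ k), (emb z ^ i - 1)) :=
        isNilpotent_sum fun i _ => by
          rw [← mul_geom_sum]
          exact Commute.isNilpotent_mul_right (Commute.all _ _) hn
      have hsA := hsum.map R.subtype
      rw [map_sum] at hsA
      simp only [map_sub, map_pow, map_one, Finset.sum_sub_distrib, Finset.sum_const, Finset.card_range,
        nsmul_one, Nat.cast_pow] at hsA
      have := hsA.isUnit_add_left_of_commute (hpu.pow k) ((Nat.cast_commute p _).pow_left k).symm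
      simpa [s, emb] using this
    have h1 : (((z : Aˣ) : A) - 1) * s = 0 := by
      rw [mul_geom_sum, ← Units.val_pow_eq_pow_val, hk, Units.val_one, sub_self]
    refine hne (mul_inv_eq_one.1 (Units.ext ?_))
    exact sub_eq_zero.1 (hs.mul_left_eq_zero.1 h1)
  rw [nilpotent_iff_mem_prime] at hnil
  push Not at hnil
  obtain ⟨P, hP, hzP⟩ := hnil
  haveI := hP
  let π := Ideal.Quotient.mk P
  let χ : H →* R ⧸ P :=
    { toFun := fun h => π (emb h)
      map_one' := map_one π
      map_mul' := fun a b => map_mul π (emb a) (emb b) }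
  let τ : H →* H :=
    { toFun := fun h => ⟨_, hHi (p ^ e) h h.2⟩
      map_one' := Subtype.ext (by simp)
      map_mul' := fun a b => Subtype.ext (by simp) }
  have hτ₀ : χ (τ ⟨h₀, h₀H⟩) ≠ χ ⟨h₀, h₀H⟩ := by
    intro h
    refine hzP (Ideal.Quotient.eq_zero_iff_mem.1 ?_)
    show π (emb z - 1) = 0
    rw [map_sub, map_one, sub_eq_zero]
    show χ z = 1
    rw [show z = τ ⟨h₀, h₀H⟩ * (⟨h₀, h₀H⟩ : H)⁻¹ from rfl, map_mul, h, ← map_mul, mul_inv_cancel, map_one]
  obtain ⟨h, hh⟩ : ∃ h : H, χ (τ h) + χ (τ h)⁻¹ - χ h - χ h⁻¹ ≠ 0 := by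
    by_contra hall
    push Not at hall
    have hroot : ∀ h : H, χ (τ h) = χ h ∨ χ (τ h) = χ h⁻¹ := by
      intro h
      have h1 := hall h
      have h2 : χ (τ h) * χ (τ h)⁻¹ = 1 := by rw [← map_mul, mul_inv_cancel, map_one]
      have h3 : χ h * χ h⁻¹ = 1 := by rw [← map_mul, mul_inv_cancel, map_one]
      have h4 : (χ (τ h) - χ h) * (χ (τ h) - χ h⁻¹) = 0 := by linear_combination χ (τ h) * h1 - h2 + h3
      rcases mul_eq_zero.1 h4 with h5 | h5
      · exact Or.inl (sub_eq_zero.1 h5)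
      · exact Or.inr (sub_eq_zero.1 h5)
    have hsq : ∀ h : H, χ h * χ h = 1 → χ h = 1 := by
      intro h hh
      obtain ⟨k, hk⟩ := hHp (h : Aˣ) h.2
      have h1 : χ h ^ p ^ k = 1 := by
        rw [← map_pow, show h ^ p ^ k = 1 from Subtype.ext (by simpa using hk), map_one]
      have hodd : (p ^ k) % 2 = 1 := by
        rw [Nat.pow_mod, (hp.out.eq_two_or_odd).resolve_left hp2, one_pow, Nat.one_mod]
      rw [← Nat.mod_add_div (p ^ k) 2, hodd, pow_add, pow_one, pow_mul, pow_two, hh, one_pow, mul_one] at h1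
      exact h1
    have hstep : ∀ h : H, χ (τ h) ≠ χ h → χ (τ (τ h)) ≠ χ (τ h) := by
      intro h hne' heq
      have h1 := (hroot h).resolve_left hne'
      have h2 : χ (τ (h * τ h)) = 1 := by
        have h3 : χ (h * τ h) = 1 := by rw [map_mul, h1, ← map_mul, mul_inv_cancel, map_one]
        rcases hroot (h * τ h) with h4 | h4
        · rw [h4, h3]
        · have h5 : χ (h * τ h) * χ (h * τ h)⁻¹ = 1 := by rw [← map_mul, mul_inv_cancel, map_one]
          rw [h3, one_mul] at h5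
          rw [h4, h5]
      rw [map_mul, map_mul, heq, h1] at h2
      have h3 := hsq _ h2
      have h4 : χ h = 1 := by
        have h5 : χ h * χ h⁻¹ = 1 := by rw [← map_mul, mul_inv_cancel, map_one]
        rwa [h3, mul_one] at h5
      exact hne' (by rw [h1, h3, h4])
    have halt : ∀ k : ℕ, χ (τ ((⇑τ)^[k] ⟨h₀, h₀H⟩)) ≠ χ ((⇑τ)^[k] ⟨h₀, h₀H⟩) ∧
        χ ((⇑τ)^[k] ⟨h₀, h₀H⟩) = if Even k then χ ⟨h₀, h₀H⟩ else χ (⟨h₀, h₀H⟩ : H)⁻¹ := by
      intro k
      induction k with
      | zero => exact ⟨hτ₀, by simp⟩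
      | succ k IH =>
        rw [Function.iterate_succ_apply']
        refine ⟨hstep _ IH.1, ?_⟩
        rw [(hroot _).resolve_left IH.1]
        have hinv : ∀ a b : H, χ a = χ b → χ a⁻¹ = χ b⁻¹ := fun a b hab => by
          calc χ a⁻¹ = χ a⁻¹ * (χ b * χ b⁻¹) := by rw [← map_mul χ b, mul_inv_cancel, map_one, mul_one]
            _ = (χ a⁻¹ * χ a) * χ b⁻¹ := by rw [hab, mul_assoc]
            _ = χ b⁻¹ := by rw [← map_mul χ a⁻¹, inv_mul_cancel, map_one, one_mul]
        by_cases hk : Even k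
        · rw [if_neg (by simp [Nat.even_add_one, hk])]
          exact hinv _ _ (by rw [IH.2, if_pos hk])
        · rw [if_pos (by simp [Nat.even_add_one, hk])]
          rw [hinv _ _ (show χ _ = χ (⟨h₀, h₀H⟩ : H)⁻¹ by rw [IH.2, if_neg hk]), inv_inv]
    have hiter : ∀ k : ℕ, (((⇑τ)^[k] ⟨h₀, h₀H⟩ : H) : Aˣ) = u ^ (p ^ e * k) * h₀ * (u ^ (p ^ e * k))⁻¹ := by
      intro k
      induction k with
      | zero => simp
      | succ k IH =>
        rw [Function.iterate_succ_apply']
        show u ^ p ^ e * _ * (u ^ p ^ e)⁻¹ = _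
        rw [IH, show p ^ e * (k + 1) = p ^ e + p ^ e * k by ring, pow_add]
        group
    have hper := (halt p).2
    rw [show (⇑τ)^[p] ⟨h₀, h₀H⟩ = ⟨h₀, h₀H⟩ from Subtype.ext (by rw [hiter, ← pow_succ, hu]; simp),
      if_neg (by rw [Nat.even_iff, (hp.out.eq_two_or_odd).resolve_left hp2]; decide)] at hper
    have h5 : χ (⟨h₀, h₀H⟩ : H) = 1 := hsq _ (by
      nth_rewrite 2 [hper]
      rw [← map_mul, mul_inv_cancel, map_one])
    rcases hroot ⟨h₀, h₀H⟩ with h6 | h6
    · exact hτ₀ h6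
    · exact hτ₀ (by rw [h6, ← hper])
  refine ⟨h, h.2, fun hzero => ?_⟩
  set f : R := emb (τ h) + emb (τ h)⁻¹ - emb h - emb h⁻¹
  have hfP : π f ≠ 0 := by
    show π (emb (τ h) + emb (τ h)⁻¹ - emb h - emb h⁻¹) ≠ 0
    rw [map_sub, map_sub, map_add]
    exact hh
  have hsep : ∀ j ∈ (Finset.range (p ^ (e + 1))).erase 0, ∃ g : R, π g - π (σ j g) ≠ 0 := by
    intro j hj
    rw [Finset.mem_erase, Finset.mem_range] at hj
    by_contra hc
    push Not at hc
    have hmult : ∀ (k : ℕ) (g : R), π (σ (j * k) g) = π g := by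
      intro k
      induction k with
      | zero =>
        intro g
        exact congrArg π (Subtype.ext (by simp [σ]))
      | succ k IH =>
        intro g
        have h1 := sub_eq_zero.1 (hc (σ (j * k) g))
        rw [IH] at h1
        rw [h1]
        refine congrArg π (Subtype.ext ?_)
        simp only [σ, ← mul_assoc]
        rw [← Units.val_mul, ← pow_add, mul_assoc, mul_assoc, ← Units.val_mul, ← mul_inv_rev, ← pow_add,
          ← mul_assoc, show j + j * k = j * (k + 1) by ring]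
    have hlt : j.gcd (p ^ (e + 1)) < p ^ (e + 1) :=
      lt_of_le_of_lt (Nat.gcd_le_left _ (Nat.pos_of_ne_zero hj.1)) hj.2
    obtain ⟨m, -, hm⟩ := Nat.exists_mul_mod_eq_gcd hlt
    obtain ⟨s, hs, hgs⟩ := (Nat.dvd_prime_pow hp.out).1 (Nat.gcd_dvd_right j (p ^ (e + 1)))
    have hse : s ≤ e := by
      by_contra hse
      rw [hgs, show s = e + 1 by omega] at hlt
      exact lt_irrefl _ hlt
    have hmod : j * (m * p ^ (e - s)) % p ^ (e + 1) = p ^ e := by
      rw [← mul_assoc, ← Nat.mod_mul_mod, hm, hgs]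
      rw [← pow_add, Nat.add_sub_cancel' hse, Nat.mod_eq_of_lt (Nat.pow_lt_pow_right hp.out.one_lt e.lt_succ_self)]
    have h1 := hmult (m * p ^ (e - s)) (emb ⟨h₀, h₀H⟩)
    apply hτ₀
    refine Eq.trans (congrArg π (Subtype.ext ?_)) h1
    simp only [σ, emb, τ]
    rw [show u ^ (j * (m * p ^ (e - s))) = u ^ p ^ e from by
      rw [← Nat.div_add_mod (j * (m * p ^ (e - s))) (p ^ (e + 1)), hmod, pow_add, pow_mul, hu, one_pow, one_mul]]
    simp [Units.val_mul]
  choose g hg using hsep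
  let g' : ℕ → R := fun j => if hj : j ∈ (Finset.range (p ^ (e + 1))).erase 0 then g j hj else 1
  let c : Finset ℕ → ℕ → R := fun S i => ∏ j ∈ S, (σ i (g' j) - σ j (g' j))
  have helim : ∀ S : Finset ℕ, ∀ r : R,
      (f : A) * ∑ i ∈ Finset.range (p ^ (e + 1)), (c S i : A) * (u : A) ^ i * (r : A) = 0 := by
    intro S
    induction S using Finset.induction_on with
    | empty =>
      intro r
      have h1 : (f : A) * ∑ i ∈ Finset.range (p ^ (e + 1)), (u : A) ^ i = 0 := hzero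
      simp [c, ← Finset.sum_mul, ← mul_assoc, h1]
    | insert k S hk IH =>
      intro r
      have e1 := IH (g' k * r)
      have e2 := IH r
      have hcom : ∀ a b : R, (a : A) * (b : A) = (b : A) * (a : A) := fun a b =>
        congrArg Subtype.val (mul_comm a b)
      have e3 : ∀ i, (c (insert k S) i : A) * (u : A) ^ i * (r : A) =
          (c S i : A) * (u : A) ^ i * ((g' k * r : R) : A) - (σ k (g' k) : A) * ((c S i : A) * (u : A) ^ i * (r : A)) := by
        intro i
        simp only [c, Finset.prod_insert hk, Subring.coe_mul, AddSubgroupClass.coe_sub, sub_mul]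
        congr 1
        · rw [hcom (σ i (g' k)), mul_assoc _ ((u : A) ^ i) ((g' k : A) * (r : A)),
            ← mul_assoc ((u : A) ^ i) (g' k : A), hσpush]
          simp only [mul_assoc]
        · simp only [mul_assoc]
      rw [Finset.sum_congr rfl fun i _ => e3 i, Finset.sum_sub_distrib, mul_sub, ← Finset.mul_sum, ← mul_assoc,
        hcom f, mul_assoc, e1, e2, mul_zero, sub_zero]
  let S₀ := (Finset.range (p ^ (e + 1))).erase 0
  have hlast := helim S₀ 1
  rw [Finset.sum_eq_single_of_mem 0 (Finset.mem_range.2 (pow_pos hp.out.pos _)) fun i hi hi0 => ?_] at hlast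
  · have h2 : f * c S₀ 0 = 0 := Subtype.ext (by simpa using hlast)
    have h3 : π f * π (c S₀ 0) = 0 := by rw [← map_mul, h2, map_zero]
    refine (mul_eq_zero.1 h3).elim hfP fun h4 => ?_
    simp only [c, map_prod, Finset.prod_eq_zero_iff] at h4
    obtain ⟨j, hj, hj0⟩ := h4
    refine hg j hj ?_
    rw [← hj0, map_sub, show g' j = g j hj by exact dif_pos (c := j ∈ (Finset.range (p ^ (e + 1))).erase 0) hj, show σ 0 (g j hj) = g j hj from Subtype.ext (by simp [σ])]
  · have hmem : i ∈ S₀ := Finset.mem_erase.2 ⟨hi0, hi⟩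
    rw [show c S₀ i = 0 from Finset.prod_eq_zero hmem (sub_self _)]
    simp

end CfsgLib.HallHigmanB
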