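import Cfsg.Agent.HallHigmanB.Main
import Cfsg.Agent.CoprimeAction.Hyperplane
import Cfsg.Agent.CoprimeAction.Frattini
import Cfsg.Agent.PReduced.PIrreducible

/-!
A subgroup generated by two conjugates of a p-subgroup in a p-soluble group.
-/

set_option autoImplicit false
set_option linter.style.haveILetI false

namespace CfsgLib.HallHigmanB

open CfsgLib.PCore
open scoped commutatorElement

universe u

variable {M : Type u} [Group M] [Finite M] {p : ℕ} [hp : Fact p.Prime]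

/-- An element of the image lifts to one with order prime to `p`, if its own order is. -/
theorem exists_coprime_lift {H : Type*} [Group H] (f : M →* H) {L : Subgroup M} {l : M} (hl : l ∈ L)
    (h : (orderOf (f l)).Coprime p) : ∃ x ∈ L, f x = f l ∧ (orderOf x).Coprime p := by
  set m := orderOf l with hm
  have hm0 : m ≠ 0 := (orderOf_pos l).ne'
  obtain ⟨k, m', hm', hkm⟩ := Nat.exists_eq_pow_mul_and_not_dvd hm0 p hp.out.ne_one
  have hcop : m'.Coprime (p ^ k) := ((hp.out.coprime_iff_not_dvd.2 hm').pow_left k).symm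
  -- an exponent that is 1 mod the order of the image and divisible by p^k
  obtain ⟨a, ha1, ha2⟩ := Nat.chineseRemainder hcop 1 0
  refine ⟨l ^ a, pow_mem hl _, ?_, ?_⟩
  · have hd : orderOf (f l) ∣ m' := by
      have h1 : orderOf (f l) ∣ p ^ k * m' := hkm ▸ orderOf_map_dvd f l
      exact (h.pow_right k).dvd_of_dvd_mul_left h1
    rw [map_pow, ← pow_mod_orderOf]
    have : a % orderOf (f l) = 1 % orderOf (f l) := (Nat.ModEq.of_dvd hd ha1)
    rw [this, pow_mod_orderOf, pow_one]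
  · refine Nat.Coprime.coprime_dvd_left (orderOf_dvd_of_pow_eq_one ?_) (hp.out.coprime_iff_not_dvd.2 hm').symm
    rw [← pow_mul]
    refine orderOf_dvd_iff_pow_eq_one.1 ?_
    rw [← hm, hkm]
    exact Nat.mul_dvd_mul (Nat.modEq_zero_iff_dvd.1 ha2) dvd_rfl

theorem two_conjugates (hs : Cfsg.IsPSolvable p M) (A : Subgroup M) (hA : IsPGroup p A)
    (hΦ : (frattini ↥A).map A.subtype ≤ Cfsg.pCore p M) (hnot : ¬ A ≤ Cfsg.pCore p M) :
    ∃ x ∈ (Cfsg.pPrimeCore p (M ⧸ Cfsg.pCore p M)).comap (QuotientGroup.mk' (Cfsg.pCore p M)),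
    ∃ L : Subgroup M, L = A ⊔ A.map (MulAut.conj x).toMonoidHom ∧
    ∃ H : Subgroup M, H = (Cfsg.pResidual p ↥L).map L.subtype ∧
    ∃ O : Subgroup M, O = (Cfsg.pCore p ↥L).map L.subtype ∧
      x ∈ H ∧ H ≤ (Cfsg.pPrimeCore p (M ⧸ Cfsg.pCore p M)).comap (QuotientGroup.mk' (Cfsg.pCore p M)) ∧
      ⁅H, A⁆ = H ∧ (A ⊓ O).relIndex A = p ∧ ⁅A ⊓ O, L⁆ ≤ Cfsg.pCore p M := by
  classical
  haveI : (Cfsg.pCore p M).Normal := Cfsg.pCore_normal p M
  set P := Cfsg.pCore p M with hP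
  set q := QuotientGroup.mk' P with hq
  set N := Cfsg.pPrimeCore p (M ⧸ P) with hN
  haveI : N.Normal := Cfsg.pPrimeCore_normal p _
  set K := N.comap q with hK
  haveI : K.Normal := inferInstanceAs (N.comap q).Normal
  set Ā := A.map q with hĀ
  have hq1 : ∀ g, q g = 1 ↔ g ∈ P := fun g => QuotientGroup.eq_one_iff g
  have hĀp : IsPGroup p Ā := hA.map q
  have hexp : ∀ u ∈ Ā, u ^ p = 1 := by
    rintro _ ⟨a, ha, rfl⟩
    rw [← map_pow, hq1]
    exact hΦ ⟨_, CfsgLib.CoprimeAction.pow_mem_frattini hA ⟨a, ha⟩, rfl⟩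
  haveI : IsMulCommutative Ā := ⟨⟨by
    rintro ⟨_, a, ha, rfl⟩ ⟨_, b, hb, rfl⟩
    refine Subtype.ext (commutatorElement_eq_one_iff_mul_comm.1 ?_)
    rw [← map_commutatorElement, hq1]
    exact hΦ ⟨_, CfsgLib.CoprimeAction.commutator_le_frattini' hA
      (Subgroup.commutator_mem_commutator (Subgroup.mem_top (⟨a, ha⟩ : A)) (Subgroup.mem_top ⟨b, hb⟩)), rfl⟩⟩⟩
  have hĀne : Ā ≠ ⊥ := fun h => hnot fun a ha =>
    (hq1 a).1 ((Subgroup.eq_bot_iff_forall _).1 h _ (Subgroup.mem_map_of_mem q ha))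
  have hN1 : (Nat.card N).Coprime p := pPrimeCore_coprime p _
  have hdisj : ∀ u : M ⧸ P, (∃ k, u ^ p ^ k = 1) → u ∈ N → u = 1 := by
    rintro u ⟨k, hk⟩ hu
    refine orderOf_eq_one_iff.1 (Nat.eq_one_of_dvd_coprimes ((hN1.pow_right k)) ?_ (orderOf_dvd_of_pow_eq_one hk))
    exact Subgroup.orderOf_dvd_natCard N hu
  have hĀN : Ā ≤ Subgroup.normalizer (N : Set (M ⧸ P)) := by rw [Subgroup.normalizer_eq_top]; exact le_top
  have hcopA : (Nat.card Ā).Coprime (Nat.card N) := by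
    obtain ⟨i, hi⟩ := IsPGroup.iff_card.1 hĀp
    rw [hi]
    exact hN1.symm.pow_left i
  -- a hyperplane whose centralizer in `N` is not centralised
  obtain ⟨B, hBA, hBi, hBc⟩ : ∃ B ≤ Ā, B.relIndex Ā = p ∧
      ¬ N ⊓ Subgroup.centralizer (B : Set (M ⧸ P)) ≤ Subgroup.centralizer (Ā : Set (M ⧸ P)) := by
    by_contra hcon
    simp only [not_exists, not_and, not_not] at hcon
    have h1 := CfsgLib.CoprimeAction.le_of_hyperplane_centralizers_le hĀne hexp hĀN hcopA hcon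
    have h2 := centralizer_pPrimeCore_le (isPSolvable_quotient hs P) pCore_quotient
    refine hĀne ((Subgroup.eq_bot_iff_forall _).2 fun u hu => hdisj u ⟨1, by rw [pow_one]; exact hexp u hu⟩ ?_)
    exact h2 (Subgroup.le_centralizer_iff.1 h1 hu)
  set C := N ⊓ Subgroup.centralizer (B : Set (M ⧸ P)) with hC
  -- an element outside `B`
  obtain ⟨a₀, ha₀, ha₀B⟩ : ∃ a ∈ A, q a ∉ B := by
    by_contra hcon
    simp only [not_exists, not_and, not_not] at hcon
    have h1 : Ā ≤ B := by rintro _ ⟨a, ha, rfl⟩; exact hcon a ha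
    rw [Subgroup.relIndex_eq_one.2 h1] at hBi
    exact hp.out.ne_one hBi.symm
  have hgen : ∀ u ∈ Ā, ∀ W : Subgroup (M ⧸ P), B ≤ W → q a₀ ∈ W → u ∈ W := by
    intro u hu W hW hW'
    have h1 : B ⊔ Subgroup.zpowers (q a₀) = Ā := by
      refine le_antisymm (sup_le hBA (Subgroup.zpowers_le.2 (Subgroup.mem_map_of_mem q ha₀))) ?_
      rw [← Subgroup.relIndex_eq_one]
      have h2 := Subgroup.relIndex_mul_relIndex B (B ⊔ Subgroup.zpowers (q a₀)) Ā le_sup_left
        (sup_le hBA (Subgroup.zpowers_le.2 (Subgroup.mem_map_of_mem q ha₀)))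
      rw [hBi] at h2
      rcases hp.out.eq_one_or_self_of_dvd _ (Dvd.intro _ h2) with h3 | h3
      · exact absurd (Subgroup.relIndex_eq_one.1 h3 (Subgroup.mem_sup_right (Subgroup.mem_zpowers _))) ha₀B
      · rw [h3] at h2
        exact mul_left_cancel₀ hp.out.ne_zero (h2.trans (mul_one p).symm)
    rw [← h1] at hu
    exact sup_le hW (Subgroup.zpowers_le.2 hW') hu
  -- a minimal invariant subgroup not centralised
  obtain ⟨R, ⟨hRC, hRA, hRc⟩, hRmin⟩ := (wellFounded_lt (α := Subgroup (M ⧸ P))).has_min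
    {R | R ≤ C ∧ Ā ≤ Subgroup.normalizer (R : Set (M ⧸ P)) ∧ ¬ R ≤ Subgroup.centralizer (Ā : Set (M ⧸ P))}
    ⟨C, le_rfl, Subgroup.le_normalizer_iff.2 fun u hu n hn => by
      refine ⟨‹N.Normal›.conj_mem n hn.1 u, Subgroup.mem_centralizer_iff.2 fun b hb => ?_⟩
      have hbu : Commute b u := congrArg Subtype.val (mul_comm' (⟨b, hBA hb⟩ : Ā) ⟨u, hu⟩)
      exact (hbu.mul_right (Subgroup.mem_centralizer_iff.1 hn.2 b hb)).mul_right hbu.inv_right, hBc⟩
  obtain ⟨x₀, hx₀R, hx₀⟩ : ∃ x₀ ∈ R, x₀ * q a₀ ≠ q a₀ * x₀ := by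
    by_contra hcon
    simp only [not_exists, not_and, not_not] at hcon
    refine hRc fun r hr => Subgroup.mem_centralizer_iff.2 fun u hu => ?_
    refine (Subgroup.mem_centralizer_singleton_iff.1 (hgen u hu _ (fun b hb => ?_) ?_))
    · exact Subgroup.mem_centralizer_singleton_iff.2 ((Subgroup.mem_centralizer_iff.1 (hRC hr).2) b hb)
    · exact Subgroup.mem_centralizer_singleton_iff.2 (hcon r hr).symm
  have hx₀N : x₀ ∈ N := (hRC hx₀R).1
  have hx₀B : ∀ b ∈ B, b * x₀ = x₀ * b := fun b hb => Subgroup.mem_centralizer_iff.1 (hRC hx₀R).2 b hb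
  have hord : (orderOf x₀).Coprime p := hN1.coprime_dvd_left (Subgroup.orderOf_dvd_natCard N hx₀N)
  -- `x₀` lies in every subgroup containing the two images
  have hx₀L : ∀ W : Subgroup (M ⧸ P), Ā ≤ W → x₀ * q a₀ * x₀⁻¹ ∈ W → x₀ ∈ W := by
    intro W hW hW'
    have hc : ⁅x₀, q a₀⁆ ∈ W ⊓ R := by
      refine ⟨W.mul_mem hW' (W.inv_mem (hW (Subgroup.mem_map_of_mem q ha₀))), ?_⟩
      rw [commutatorElement_def, mul_assoc x₀, mul_assoc x₀]
      refine R.mul_mem hx₀R ?_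
      exact (Subgroup.mem_normalizer_iff.1 (hRA (Subgroup.mem_map_of_mem q ha₀)) _).1 (R.inv_mem hx₀R)
    by_contra hx
    have hlt : W ⊓ R < R := lt_of_le_of_ne inf_le_right fun h => hx ((h.ge hx₀R).1)
    have hcen : W ⊓ R ≤ Subgroup.centralizer (Ā : Set (M ⧸ P)) := by
      by_contra hcen
      refine hRmin _ ⟨inf_le_right.trans hRC, fun u hu => ?_, hcen⟩ hlt
      exact Subgroup.inf_normalizer_le_normalizer_inf (H := W) (K := R)
        ⟨Subgroup.le_normalizer (hW hu), hRA hu⟩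
    have hcomm : Commute ⁅x₀, q a₀⁆ (q a₀) :=
      (Subgroup.mem_centralizer_iff.1 (hcen hc) _ (Subgroup.mem_map_of_mem q ha₀)).symm
    have h1 : (⁅x₀, q a₀⁆ * q a₀) ^ p = 1 := by
      rw [commutatorElement_def, inv_mul_cancel_right, conj_pow, hexp _ (Subgroup.mem_map_of_mem q ha₀), mul_one,
        mul_inv_cancel]
    rw [hcomm.mul_pow, hexp _ (Subgroup.mem_map_of_mem q ha₀), mul_one] at h1
    have h2 := hdisj _ ⟨1, by rw [pow_one]; exact h1⟩ ((hRC hc.2).1)
    exact hx₀ (commutatorElement_eq_one_iff_mul_comm.1 h2)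
  -- a minimal subgroup over `A` whose image contains `x₀`
  obtain ⟨L, ⟨hAL, l, hl, hlx⟩, hLmin⟩ := (wellFounded_lt (α := Subgroup M)).has_min
    {L | A ≤ L ∧ ∃ l ∈ L, q l = x₀}
    ⟨⊤, le_top, by obtain ⟨l, hl⟩ := QuotientGroup.mk'_surjective P x₀; exact ⟨l, trivial, hl⟩⟩
  obtain ⟨x, hxL, hxl, hxo⟩ := exists_coprime_lift q hl (hlx.symm ▸ hord)
  have hxq : q x = x₀ := hxl.trans hlx
  have hL : L = A ⊔ A.map (MulAut.conj x).toMonoidHom := by
    have hle : A ⊔ A.map (MulAut.conj x).toMonoidHom ≤ L := by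
      refine sup_le hAL ?_
      rintro _ ⟨a, ha, rfl⟩
      exact L.mul_mem (L.mul_mem hxL (hAL ha)) (L.inv_mem hxL)
    refine (eq_of_le_of_not_lt hle (hLmin _ ⟨le_sup_left, ?_⟩)).symm
    exact hx₀L ((A ⊔ A.map (MulAut.conj x).toMonoidHom).map q) (Subgroup.map_mono le_sup_left)
      ⟨x * a₀ * x⁻¹, Subgroup.mem_sup_right ⟨a₀, ha₀, rfl⟩, by rw [map_mul, map_mul, map_inv, hxq]⟩
  have hxK : x ∈ K := by show q x ∈ N; rw [hxq]; exact hx₀N
  set H := (Cfsg.pResidual p ↥L).map L.subtype with hH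
  have hxH : x ∈ H := ⟨⟨x, hxL⟩, CfsgLib.Transfer.mem_pResidual_of_coprime (by rwa [Subgroup.orderOf_mk]), rfl⟩
  have hHL : H ≤ L := Subgroup.map_subtype_le _
  haveI := CfsgLib.Transfer.pResidual_normal (p := p) (G := ↥L)
  -- `L` is `H A`
  have hLA : ∀ T : Subgroup M, A ≤ T → x ∈ T → L ≤ T := by
    intro T hT hxT
    rw [hL]
    refine sup_le hT ?_
    rintro _ ⟨a, ha, rfl⟩
    exact T.mul_mem (T.mul_mem hxT (hT ha)) (T.inv_mem hxT)
  have hres : ∀ T : Subgroup M, L ≤ Subgroup.normalizer (T : Set M) →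
      (∀ g ∈ L, ∃ k, g ^ p ^ k ∈ T) → H ≤ T := by
    intro T hT h
    haveI : (T.subgroupOf L).Normal := Subgroup.normal_subgroupOf_of_le_normalizer hT
    have h1 := CfsgLib.PReduced.pResidual_le_of_forall_pow_mem (T.subgroupOf L) (p := p) fun g => by
      obtain ⟨k, hk⟩ := h g g.2
      exact ⟨k, by rw [Subgroup.mem_subgroupOf, SubmonoidClass.coe_pow]; exact hk⟩
    rintro _ ⟨g, hg, rfl⟩
    exact h1 hg
  have hpowA : ∀ T : Subgroup M, L ≤ Subgroup.normalizer (T : Set M) → L ≤ A ⊔ T →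
      ∀ g ∈ L, ∃ k, g ^ p ^ k ∈ T := by
    intro T hT h g hg
    obtain ⟨a, ha, t, ht, rfl⟩ := CfsgLib.CoprimeAction.exists_mul_of_mem_sup (hAL.trans hT) (h hg)
    obtain ⟨k, hk⟩ := hA ⟨a, ha⟩
    refine ⟨k, ?_⟩
    haveI : (T.subgroupOf (Subgroup.normalizer (T : Set M))).Normal := Subgroup.normal_in_normalizer
    have htN : t ∈ Subgroup.normalizer (T : Set M) := Subgroup.le_normalizer ht
    have haN : a ∈ Subgroup.normalizer (T : Set M) := hT (hAL ha)
    set f := QuotientGroup.mk' (T.subgroupOf (Subgroup.normalizer (T : Set M)))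
    have h0 : (⟨a, haN⟩ : Subgroup.normalizer (T : Set M)) ^ p ^ k = 1 := by
      apply Subtype.ext
      simpa using congrArg Subtype.val hk
    have h1 : f ((⟨a, haN⟩ * ⟨t, htN⟩) ^ p ^ k) = 1 := by
      rw [map_pow, map_mul, show f ⟨t, htN⟩ = 1 from (QuotientGroup.eq_one_iff _).2 ht, mul_one, ← map_pow, h0,
        map_one]
    simpa [Subgroup.mem_subgroupOf] using (QuotientGroup.eq_one_iff _).1 h1
  have hKL : L ≤ Subgroup.normalizer (K : Set M) := by rw [Subgroup.normalizer_eq_top]; exact le_top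
  have hHK : H ≤ K := hres K hKL (hpowA K hKL (hLA _ le_sup_left (Subgroup.mem_sup_right hxK)))
  have hHnorm : L ≤ Subgroup.normalizer (H : Set M) := by
    refine (le_of_eq ?_).trans (Subgroup.le_normalizer_map L.subtype)
    rw [Subgroup.normalizer_eq_top, ← MonoidHom.range_eq_map, Subgroup.range_subtype]
  have hcomm : ⁅H, A⁆ = H := by
    refine le_antisymm (CfsgLib.CoprimeAction.commutator_le_of_normalizer (hAL.trans hHnorm)) ?_
    have hn : L ≤ Subgroup.normalizer ((⁅H, A⁆ : Subgroup M) : Set M) :=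
      hLA _ (CfsgLib.CoprimeAction.le_normalizer_commutator (hAL.trans hHnorm))
        (CfsgLib.CoprimeAction.self_le_normalizer_commutator hxH)
    refine hres _ hn (hpowA _ hn ?_)
    rw [hL]
    refine sup_le le_sup_left ?_
    rintro _ ⟨a, ha, rfl⟩
    show x * a * x⁻¹ ∈ _
    rw [show x * a * x⁻¹ = ⁅x, a⁆ * a by simp [commutatorElement_def]]
    exact Subgroup.mul_mem _ (Subgroup.mem_sup_right (Subgroup.commutator_mem_commutator hxH ha))
      (Subgroup.mem_sup_left ha)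
  set O := (Cfsg.pCore p ↥L).map L.subtype with hO
  have hBL : ∀ b ∈ B, ∀ g ∈ L, b * q g = q g * b := by
    intro b hb g hg
    refine (Subgroup.mem_centralizer_singleton_iff.1 ((hLA ((Subgroup.centralizer ({b} : Set (M ⧸ P))).comap q)
      (fun a ha => ?_) ?_) hg)).symm
    · refine Subgroup.mem_centralizer_singleton_iff.2 ?_
      exact congrArg Subtype.val (mul_comm' (⟨q a, Subgroup.mem_map_of_mem q ha⟩ : Ā) ⟨b, hBA hb⟩)
    · refine Subgroup.mem_centralizer_singleton_iff.2 ?_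
      rw [hxq]; exact (hx₀B b hb).symm
  have hO1 : A ⊓ B.comap q ≤ O := by
    intro g hg
    have hgL : g ∈ L := hAL hg.1
    refine ⟨⟨g, hgL⟩, le_pCore ?_ ?_ (show (⟨g, hgL⟩ : L) ∈ (B.comap q).subgroupOf L from hg.2), rfl⟩
    · refine ⟨fun u hu v => ?_⟩
      show q ((v : M) * u * (v : M)⁻¹) ∈ B
      rw [map_mul, map_mul, map_inv, ← hBL (q u) hu v v.2, mul_inv_cancel_right]
      exact hu
    · refine IsPGroup.comap_of_injective ?_ L.subtype L.subtype_injective
      exact (hĀp.to_le hBA).comap_of_ker_isPGroup q (by rw [hq, QuotientGroup.ker_mk']; exact isPGroup_pCore p M)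
  have hO2 : A ⊓ O ≤ A ⊓ B.comap q := by
    rintro g ⟨hgA, gL, hgO, rfl⟩
    refine ⟨hgA, ?_⟩
    by_contra hgB
    refine hx₀ ?_
    have h1 : ⁅gL, ⟨x, hxL⟩⁆ ∈ Cfsg.pCore p ↥L := by
      haveI := Cfsg.pCore_normal p ↥L
      rw [commutatorElement_def, mul_assoc gL, mul_assoc gL]
      refine mul_mem hgO ?_
      exact Subgroup.Normal.conj_mem ‹_› _ (inv_mem hgO) _
    have h2 : Commute (q gL) x₀ := by
      refine commutatorElement_eq_one_iff_commute.1 (hdisj _ ?_ ?_)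
      · obtain ⟨k, hk⟩ := isPGroup_pCore p ↥L ⟨_, h1⟩
        refine ⟨k, ?_⟩
        have h3 := congrArg (fun z : Cfsg.pCore p ↥L => q ((z : L) : M)) hk
        simpa [commutatorElement_def, hxq] using h3
      · rw [commutatorElement_def]
        refine N.mul_mem ?_ (N.inv_mem hx₀N)
        exact ‹N.Normal›.conj_mem _ hx₀N _
    have h4 : q a₀ ∈ Subgroup.centralizer ({x₀} : Set (M ⧸ P)) := by
      have h5 : B ⊔ Subgroup.zpowers (q gL) ≤ Subgroup.centralizer ({x₀} : Set (M ⧸ P)) :=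
        sup_le (fun b hb => Subgroup.mem_centralizer_singleton_iff.2 (hx₀B b hb))
          (Subgroup.zpowers_le.2 (Subgroup.mem_centralizer_singleton_iff.2 h2))
      refine h5 ?_
      have hgu : q gL ∈ Ā := Subgroup.mem_map_of_mem q hgA
      have h6 := Subgroup.relIndex_mul_relIndex B (B ⊔ Subgroup.zpowers (q gL)) Ā le_sup_left
        (sup_le hBA (Subgroup.zpowers_le.2 hgu))
      rw [hBi] at h6
      rcases hp.out.eq_one_or_self_of_dvd _ (Dvd.intro _ h6) with h3 | h3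
      · exact absurd (Subgroup.relIndex_eq_one.1 h3 (Subgroup.mem_sup_right (Subgroup.mem_zpowers _))) hgB
      · rw [h3] at h6
        exact Subgroup.relIndex_eq_one.1 (mul_left_cancel₀ hp.out.ne_zero (h6.trans (mul_one p).symm))
          (Subgroup.mem_map_of_mem q ha₀)
    exact (Subgroup.mem_centralizer_singleton_iff.1 h4).symm
  refine ⟨x, hxK, L, hL, H, rfl, O, rfl, hxH, hHK, hcomm, ?_, ?_⟩
  · rw [le_antisymm hO2 (le_inf inf_le_left hO1), inf_comm, Subgroup.inf_relIndex_right, Subgroup.relIndex_comap]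
    exact hBi
  · refine Subgroup.commutator_le.2 fun u hu v hv => (hq1 _).1 ?_
    rw [map_commutatorElement, commutatorElement_eq_one_iff_mul_comm]
    exact hBL _ (hO2 hu).2 v hv

end CfsgLib.HallHigmanB
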